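import Cfsg.Agent.Lib.HJ.MxA

/-!
Computations in the model `W`.
-/

set_option autoImplicit false
set_option maxRecDepth 100000
set_option synthInstance.maxSize 100000

namespace CA.Mx

open CA.MxM CA.MxT CA.CWord

/-- the action on the centralizer of `t1` -/
def ar (m n k y : W) : W := nf tR t1 (z * t1) m n k y.v

/-- the action on the centralizer of `t2` -/
def aq (m n y : W) : W := ta (ar m n e1 (ta (ta y)))
/-- the action on `E₁` -/
def hh (y : W) : W := z * x⁻¹ * ar 1 1 e1 y * (z * x⁻¹)⁻¹
abbrev ops : List (W × W) := [(a, w2), (a * z, a * t3)]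

end CA.Mx
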