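import Cfsg.Agent.Lib.HJ.MxK0

/-!
Computations in the model `W`.
-/

set_option autoImplicit false
set_option maxRecDepth 100000
set_option synthInstance.maxSize 100000

namespace CA.Mx

open CA.MxM CA.MxT CA.CWord

attribute [local instance 5000] List.decidableBAll List.decidableBEx

theorem wz : ∀ m : W, m * z = z * m := by decide +kernel
theorem k1 : z * z = 1 ∧ z ≠ 1 ∧ t1 * t1 = 1 ∧ t1 ≠ 1 ∧ z ≠ t1 ∧ y0 * y0 = z ∧ y0 * t1 = t1 * y0 ∧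
    e2 * t1 * e2⁻¹ = z * t1 ∧ e2 * (z * t1) * e2⁻¹ = t1 ∧ t1 * (z * t1) = z ∧ t2 * t1 = t1 * t2 ∧ a * t1 = t1 * a ∧
    e1 * t1 = t1 * e1 ∧ t2 * t2 = 1 ∧ a * a = 1 ∧ e1 * e1 = 1 ∧ e2 * e2 = 1 ∧ t2 * a = a * t2 ∧ e2 * e1 = e1 * e2 := by
  decide +kernel
theorem d0 : ∀ n : W, n * n * (n * n) = 1 → n * n = 1 ∨ n * n = z ∨ ∃ q ∈ [e1, e2, t1, t2],
    q * (n * n) * q⁻¹ = z * (n * n) := by decide +kernel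
theorem d1 : ∀ m : W, m * t1 = t1 * m → m * m * (m * m) = 1 ∧ nf tR z t1 t2 a e1 m.v = m ∧
    e2 * m * e2⁻¹ * t1 = t1 * (e2 * m * e2⁻¹) ∧ (m * e1 = e1 * m → bt kE m) ∧ (m * t2 = t2 * m → m * a = a * m → bt kA m) := by
  decide +kernel
theorem d3 : ∀ c : W, bt kE c → nf tR z t1 1 1 e1 c.v = c ∧ bt kE (ar 1 1 e1 c) ∧ bt kE c⁻¹ ∧
    (ar 1 1 e1 c * ar 1 1 e1 (ar 1 1 e1 c) * c = 1 → e2 * c * e2⁻¹ = ar 1 1 e1 c → c = 1 ∨ c = t1) ∧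
    (c = 1 ∨ c = z ∨ ∃ k, k * c * k⁻¹ = t1) ∧ c * c = 1 ∧ (z * x⁻¹ * ar 1 1 e1 c * (z * x⁻¹)⁻¹ = c → c = 1 ∨ c = f1) ∧
    ∀ k, bt kE (k * c * k⁻¹) ∧ (bt kE k → bt kE (k * c) ∧ k * c = c * k) := by decide +kernel
theorem d4 : ∀ m : W, m * m = 1 → m * t1 = t1 * m → ∀ n : W, n * n = 1 → n * t1 = t1 * n →
    (∀ y ∈ [t2, a], ar m n e1 (e1 * y) = e1 * ar m n e1 y ∧ ar m n e1 (ar m n e1 (ar m n e1 y)) = y ∧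
      e2 * ar m n e1 (e2 * ar m n e1 y * e2⁻¹) * e2⁻¹ = y) → m * n = n * m →
    m = a ∧ n = w2 ∨ m = a * z ∧ n = a * t3 := by decide +kernel
theorem d8 : ∀ p ∈ [(a, w2), (a * z, a * t3)], ∀ d ∈ [a, a * z], ∃ d' ∈ [t2, t3], d' * t1 = t1 * d' ∧ ar p.1 p.2 e1 d' = d := by
  decide +kernel
theorem k2 : ta z = z ∧ ta t1 = t2 ∧ ta t2 = t3 ∧ ta t3 = t1 ∧ ta a = a ∧ ta x = x ∧ ta e1 = e2 ∧ ta e2 = e1 * e2 ∧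
    be z = z ∧ be t1 = t1 ∧ be t2 = t2 ∧ be t3 = t3 ∧ be e1 = e1 ∧ be e2 = e2 ∧ be a = a * z ∧ be (a * z) = a ∧
    bt kE 1 ∧ bt kE z ∧ bt kE t1 ∧ bt kE e1 ∧ bt kE (z * t1) := by decide +kernel

end CA.Mx
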