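import Cfsg.Agent.Lib.HJ.MxK0

/-!
Computations in the model `W`.
-/

set_option autoImplicit false
set_option maxRecDepth 100000
set_option synthInstance.maxSize 100000

namespace CA.Mx

open CA.MxM CA.MxT CA.CWord

attribute [local instance 5000] List.decidableBAll List.decidableBEx

theorem d2 : ∀ m : W, m * m = 1 → m * t1 = t1 * m → ∀ n : W, n * n = 1 → n * t1 = t1 * n → m * n = n * m →
    ∀ k : W, k * k = 1 → k * t1 = t1 * k → (∀ y ∈ [t2, a], ar m n k (e1 * y) = k * ar m n k y ∧ ar m n k (ar m n k (ar m n k y)) = y) →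
    ar m n k (ar m n k k) = e1 → ∃ u ∈ [1, t2, a, t2 * a], u * t1 = t1 * u ∧ u * e1 * u⁻¹ * t1 = t1 * (u * e1 * u⁻¹) ∧
      ar m n k (u * e1 * u⁻¹) = u * e1 * u⁻¹ := by decide +kernel

end CA.Mx
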