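import Cfsg.Agent.Lib.HJ.MxK0

/-!
Computations in the model `W`.
-/

set_option autoImplicit false
set_option maxRecDepth 100000
set_option synthInstance.maxSize 100000

namespace CA.Mx

open CA.MxM CA.MxT CA.CWord

attribute [local instance 5000] List.decidableBAll List.decidableBEx

theorem d5 : ∀ m : W, m * m = 1 → bt kE m ∨ ∃ k, ∃ d ∈ [t2, t3, a, a * z], k * m * k⁻¹ = d := by decide +kernel
theorem d6 : ∀ m : W, m ^ 12 = 1 ∧ (m ^ 3 = 1 → ∀ n, n * n = 1 → m * n = n * m → m = 1 ∨ n = 1 ∨ n = z) := by decide +kernel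
theorem d7 : ∀ d ∈ [t2, t3], d * d = 1 ∧ d ≠ 1 ∧ ¬ bt kE d ∧ d * t1 = t1 * d ∧ (∀ m, bt kE m → m * d = d * m → m = 1 ∨ m = z ∨
    ∃ k, k * d = d * k ∧ k * m * k⁻¹ = t1) ∧ ∀ p ∈ [(a, w2), (a * z, a * t3)], ∀ l, ar p.1 p.2 e1 (l * d * l⁻¹) ≠ d ∨
      l * d * l⁻¹ * t1 ≠ t1 * (l * d * l⁻¹) := by decide +kernel

end CA.Mx
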